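import Cfsg.Agent.H168.SRHex.Main
import Cfsg.Agent.HexModel.Main
import Cfsg.Prelude.Def_LieChev
import Cfsg.Prelude.Def_LieTwisted

/-!
# Team SR (S4971): the rows `³D₄(q)` and `G₂(q)`, `q` even (helper168)
-/

set_option autoImplicit false

namespace Cfsg.Agent.H168.SRHex.Rows

open Cfsg.Lie Cfsg.Agent.StdRank2.Hex Cfsg.Agent.H721.SR Cfsg.Agent.HexModel.Main

/-- every real element of `³D₄(q)`, `q` even, is strongly real -/
theorem real_d4 {K : Type*} [Field K] [Fintype K] {q : ℕ} (hq : IsPrimePow q) (hK : Fintype.card K = q ^ 3)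
    (h2 : (2 : K) = 0) (g : ↥(twistedD4 K q)) (hr : IsConj g g⁻¹) : SR g := by
  obtain ⟨p, a, hp, ha, rfl⟩ := hq
  have hp2 : p = 2 := by
    have h3 : p ∣ Fintype.card K := by rw [hK]; exact dvd_pow (dvd_pow_self p ha.ne') (by norm_num)
    have hchar : CharP K 2 := by
      rw [CharP.charP_iff_prime_eq_zero Nat.prime_two]
      exact_mod_cast h2
    obtain ⟨n, -, hn⟩ := FiniteField.card K 2
    rw [hn] at h3
    exact (Nat.prime_dvd_prime_iff_eq hp.nat_prime Nat.prime_two).1 (hp.nat_prime.dvd_of_dvd_pow h3)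
  subst hp2
  have hK' : Fintype.card K = 8 ^ a := by
    rw [hK, ← pow_mul, mul_comm, pow_mul]; norm_num
  obtain ⟨σ, hσ, h3, -, -⟩ := exists_sigma ha hK'
  have : Finite (GL chevD4.Idx K) := inferInstance
  exact real_sr (d4_hexTwo hσ h2 h3) (d4_top hσ h2) hr

theorem rr_d4 {K : Type*} [Field K] [Fintype K] {q : ℕ} (hq : IsPrimePow q) (hK : Fintype.card K = q ^ 3)
    (h2 : (2 : K) = 0) : RR ↥(twistedD4 K q) := RR.of_real fun g hr => real_d4 hq hK h2 g hr

/-- every real element of `G₂(q)`, `q` even, is strongly real -/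
theorem real_g2 {F : Type*} [Field F] [Fintype F] (h2 : (2 : F) = 0) (g : ↥(chevG2.group F)) (hr : IsConj g g⁻¹) :
    SR g := real_sr (Cfsg.Agent.HexModel.G2.hexTwo h2) g2_top hr

theorem rr_g2 {F : Type*} [Field F] [Fintype F] (h2 : (2 : F) = 0) : RR ↥(chevG2.group F) :=
  RR.of_real fun g hr => real_g2 h2 g hr

end Cfsg.Agent.H168.SRHex.Rows
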